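import Cfsg.Agent.H505.S4536.DC.Main
import Cfsg.Agent.H577.GLB.Lab
import Cfsg.Agent.H623.GLn.Sec
set_option linter.all false

/-!
# S4536 E2: the truncated pairing with powers of one variable
-/

set_option autoImplicit false
set_option linter.unusedSectionVars false

open scoped ComplexConjugate TensorProduct

namespace Cfsg.Agent.H501.GLn

open Cfsg.Agent.H577.GLB.Std Cfsg.Agent.H505.S4536.DC
open MvPolynomial Cfsg.Agent.H614 Cfsg.Agent.H614.GLn Cfsg.Agent.H614.GLn.RSt
open Cfsg.Agent.H577.GLB.Real (PGen frm coP PhiF cfE)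

section diag

variable {M : ℕ}

/-- a diagonal algebra homomorphism -/
noncomputable def diag (e : Var M → ℂ) : RS M →ₐ[ℂ] RS M := aeval fun v : Var M => e v • X v

theorem diag_monomial (e : Var M → ℂ) (s : Var M →₀ ℕ) (a : ℂ) :
    diag e (monomial s a) = (s.prod fun v k => e v ^ k) • monomial s a := by
  rw [diag, aeval_monomial, monomial_eq, MvPolynomial.algebraMap_eq, Finsupp.prod, Finsupp.prod, Finsupp.prod]
  have h1 : ∏ i ∈ s.support, (e i • X i : RS M) ^ s i = (∏ i ∈ s.support, e i ^ s i) • ∏ i ∈ s.support, (X i : RS M) ^ s i := by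
    have h2 : ∀ i ∈ s.support, (e i • X i : RS M) ^ s i = C (e i ^ s i) * (X i : RS M) ^ s i := by
      intro i _
      rw [smul_pow, smul_eq_C_mul]
    rw [Finset.prod_congr rfl h2, Finset.prod_mul_distrib, ← map_prod, smul_eq_C_mul]
  rw [h1, mul_smul_comm]

variable {Q : ℤ}

theorem form_diag (e : Var M → ℂ) (v : Var M) (w : ℕ) (z : RS M) :
    form Q M (diag e z) (X v ^ w) = e v ^ w * form Q M z (X v ^ w) := by
  classical
  induction z using MvPolynomial.induction_on' with
  | monomial s a =>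
    rw [diag_monomial, form_smul_left, form_monomial_left]
    by_cases hs : s = Finsupp.single v w
    · have h2 : ((Finsupp.single v w : Var M →₀ ℕ).prod fun v k => e v ^ k) = e v ^ w :=
        Finsupp.prod_single_index (h := fun v k => e v ^ k) (pow_zero _)
      rw [hs, h2]
    · have h1 : (X v ^ w : RS M).coeff s = 0 := by
        rw [X_pow_eq_monomial, coeff_monomial, if_neg fun h => hs h.symm]
      rw [h1, map_zero, mul_zero, zero_mul, mul_zero, mul_zero]
  | add p q hp hq => rw [map_add, form_add_left, form_add_left, hp, hq, mul_add]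

end diag

section

variable {Q : ℤ} {M p : ℕ} [NeZero M]

theorem om_eq_diag : om Q M p = diag fun v : Var M => ((Eta Q M p v.1).card : ℂ)⁻¹ := rfl

open Classical in
theorem dl_eq_diag : dl M p = diag fun v : Var M => if pu M p * v.2 = v.2 then 1 else 0 := by
  rw [dl, diag]
  congr 1
  funext v
  split_ifs
  · rw [one_smul]
  · rw [zero_smul]

theorem dl_tauP (hp : p.Prime) (hQ : IsUnit (Q : ZMod M)) {a : RS M} (ha : a ∈ PGen Q M p) :
    dl M p (tauP Q M p a) = om Q M p a := by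
  induction ha using Algebra.adjoin_induction with
  | mem x hx =>
    obtain ⟨k, c, hc, rfl⟩ := hx
    by_cases h : 0 < k ∧ TorZ Q M k c
    · exact dl_tauP_rv hp hQ h.1 h.2 ((pReg_iff hp c).1 hc)
    · rw [rv, if_neg h, map_zero, map_zero, map_zero]
  | algebraMap r => rw [AlgHom.commutes, AlgHom.commutes, AlgHom.commutes]
  | add x y _ _ hx hy => rw [map_add, map_add, map_add, hx, hy]
  | mul x y _ _ hx hy => rw [map_mul, map_mul, map_mul, hx, hy]

/-- the truncated form against the powers of a variable with a regular label -/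
theorem frm_tauP (hp : p.Prime) (hQ : IsUnit (Q : ZMod M)) {v : Var M} (hv : PReg M p v.2) (w : ℕ) {a : RS M}
    (ha : a ∈ PGen Q M p) :
    frm Q M (X v ^ w) (tauP Q M p a) = (((Eta Q M p v.1).card : ℂ)⁻¹) ^ w * frm Q M (X v ^ w) a := by
  classical
  have h1 : frm Q M (X v ^ w) (tauP Q M p a) = form Q M (dl M p (tauP Q M p a)) (X v ^ w) := by
    rw [dl_eq_diag, form_diag, if_pos ((pReg_iff hp _).1 hv), one_pow, one_mul]
    rfl
  rw [h1, dl_tauP hp hQ ha, om_eq_diag, form_diag]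
  rfl

theorem PhiF_one {a : RS M} (ha : a ∈ GenR Q M) (hQ : IsUnit (Q : ZMod M)) : PhiF Q M 1 a = a := by
  induction ha using Algebra.adjoin_induction with
  | mem x hx =>
    obtain ⟨⟨k, c⟩, rfl⟩ := hx
    show PhiF Q M 1 (rv Q M k c) = rv Q M k c
    by_cases h : 0 < k ∧ TorZ Q M k c
    · rw [rv_of_tor h.1 h.2, PhiF, aeval_X]
      simp only [one_dvd, if_true, Finset.sum_range_one, pow_zero, one_mul, pow_one, Nat.div_one]
      rw [rv_same hQ k (sameZ_canon c), rv_of_tor h.1 h.2]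
    · rw [rv, if_neg h, map_zero]
  | algebraMap r => rw [AlgHom.commutes]
  | add x y _ _ hx hy => rw [map_add, hx, hy]
  | mul x y _ _ hx hy => rw [map_mul, hx, hy]

theorem frm_add (y y' : RS M) : frm Q M (y + y') = frm Q M y + frm Q M y' := by
  apply LinearMap.ext
  intro x
  exact form_add_right Q M x y y'

theorem frm_smul (a : ℂ) (y : RS M) : frm Q M (a • y) = conj a • frm Q M y := by
  apply LinearMap.ext
  intro x
  exact form_smul_right Q M a x y

theorem frm_zero : frm Q M (0 : RS M) = 0 := by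
  apply LinearMap.ext
  intro x
  exact form_zero_right Q M x

/-- **the truncated pairing is not zero** -/
theorem pairing_ne_zero (hp : p.Prime) (hQ : IsUnit (Q : ZMod M)) {v : Var M} (hv : PReg M p v.2) (w₁ w₂ : ℕ)
    {x : RS M} (hx : x ∈ PGen Q M p) (h1 : cfE Q M 1 x (X v ^ w₁) (X v ^ w₂) ≠ 0) (S₁ S₂ : Set (RS M))
    (hS₁ : (X v ^ w₁ : RS M) ∈ Submodule.span ℂ S₁) (hS₂ : (X v ^ w₂ : RS M) ∈ Submodule.span ℂ S₂) :
    ∃ y₁ ∈ S₁, ∃ y₂ ∈ S₂, LinearMap.mul' ℂ ℂ (TensorProduct.map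
        (frm Q M y₁ ∘ₗ (tauP Q M p).toLinearMap ∘ₗ (PhiF Q M 1).toLinearMap)
        (frm Q M y₂ ∘ₗ (tauP Q M p).toLinearMap) (coP M x)) ≠ 0 := by
  by_contra hcon
  push Not at hcon
  -- the pairing is biadditive
  have h2 : ∀ y₁ ∈ Submodule.span ℂ S₁, ∀ y₂ ∈ Submodule.span ℂ S₂, LinearMap.mul' ℂ ℂ (TensorProduct.map
        (frm Q M y₁ ∘ₗ (tauP Q M p).toLinearMap ∘ₗ (PhiF Q M 1).toLinearMap)
        (frm Q M y₂ ∘ₗ (tauP Q M p).toLinearMap) (coP M x)) = 0 := by
    intro y₁ hy₁ y₂ hy₂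
    induction hy₁ using Submodule.span_induction with
    | mem y₁ hy₁ =>
      induction hy₂ using Submodule.span_induction with
      | mem y₂ hy₂ => exact hcon y₁ hy₁ y₂ hy₂
      | zero => rw [frm_zero, LinearMap.zero_comp, TensorProduct.map_zero_right, LinearMap.zero_apply, map_zero]
      | add a b _ _ ha hb =>
        rw [frm_add, LinearMap.add_comp, TensorProduct.map_add_right, LinearMap.add_apply, map_add, ha, hb, add_zero]
      | smul c a _ ha =>
        rw [frm_smul, LinearMap.smul_comp, TensorProduct.map_smul_right, LinearMap.smul_apply, map_smul, ha, smul_zero]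
    | zero => rw [frm_zero, LinearMap.zero_comp, TensorProduct.map_zero_left, LinearMap.zero_apply, map_zero]
    | add a b _ _ ha hb =>
      rw [frm_add, LinearMap.add_comp, TensorProduct.map_add_left, LinearMap.add_apply, map_add, ha, hb, add_zero]
    | smul c a _ ha =>
      rw [frm_smul, LinearMap.smul_comp, TensorProduct.map_smul_left, LinearMap.smul_apply, map_smul, ha, smul_zero]
  have h3 := h2 _ hS₁ _ hS₂
  apply h1
  have hne : ∀ w : ℕ, ((((Eta Q M p v.1).card : ℂ)⁻¹) ^ w) ≠ 0 := fun w => pow_ne_zero _ (inv_ne_zero (card_Eta_ne hp _))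
  have h4 := H623.GLn.map_coP_congr hx
    (g₁ := frm Q M (X v ^ w₁) ∘ₗ (tauP Q M p).toLinearMap ∘ₗ (PhiF Q M 1).toLinearMap)
    (g₁' := ((((Eta Q M p v.1).card : ℂ)⁻¹) ^ w₁) • (frm (Q ^ 1) M (X v ^ w₁) ∘ₗ (PhiF Q M 1).toLinearMap))
    (g₂ := frm Q M (X v ^ w₂) ∘ₗ (tauP Q M p).toLinearMap)
    (g₂' := ((((Eta Q M p v.1).card : ℂ)⁻¹) ^ w₂) • frm Q M (X v ^ w₂))
    (fun a ha => by
      show frm Q M (X v ^ w₁) (tauP Q M p (PhiF Q M 1 a)) =
        ((((Eta Q M p v.1).card : ℂ)⁻¹) ^ w₁) • frm (Q ^ 1) M (X v ^ w₁) (PhiF Q M 1 a)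
      rw [PhiF_one (H623.GLn.PGen_le ha) hQ, frm_tauP hp hQ hv _ ha, pow_one, smul_eq_mul])
    (fun a ha => frm_tauP hp hQ hv _ ha)
  rw [h4, TensorProduct.map_smul_left, TensorProduct.map_smul_right, LinearMap.smul_apply, LinearMap.smul_apply,
    map_smul, map_smul, smul_eq_zero, smul_eq_zero] at h3
  exact (h3.resolve_left (hne _)).resolve_left (hne _)

end

end Cfsg.Agent.H501.GLn
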